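import Mathlib

/-!
# S4816, module side: the covering bound and the chain bound (helper388)

`L` perfect, `π : L →* S` onto the simple group `S` with a central kernel of order prime to `p`, `|S| = N p ^ a`, `p ∤ N`;
`V` a finite `F_p L`-module without fixed vectors all of whose stabilizers have index prime to `p`.
* `cov` : `|V : C_V(P)| ≤ N` for every Sylow `p`-subgroup `P`;
* `cov_pow` : `|V : C_V(P)| = p ^ e` with `p ^ e ≤ N`;
* `gen` : `|V| ≤ |V : C_V(P)| ^ (j + 1)` for some `j` with `(p + 1) ^ j ≤ N`;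
* `chain` : the numerical form.
-/

set_option autoImplicit false

namespace Cfsg.Agent.H388.RI

open Subgroup MulAction
open scoped commutatorElement

variable {L : Type*} [Group L] {p : ℕ}

/-- one step of the chain -/
theorem step [Finite L] (hp : p.Prime) {K P : Subgroup L} (hK : ¬ p ∣ K.index) (hP : IsPGroup p P) (h : ¬ P ≤ K) :
    (p + 1) * Nat.card K ≤ Nat.card ↥(K ⊔ P) := by
  have : Fact p.Prime := ⟨hp⟩
  have hr : K.relIndex (K ⊔ P) * (K ⊔ P).index = K.index := relIndex_mul_index le_sup_left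
  have hrp : ¬ p ∣ K.relIndex (K ⊔ P) := fun hd => hK (hr ▸ Dvd.dvd.mul_right hd _)
  have hc : Nat.card K * K.relIndex (K ⊔ P) = Nat.card ↥(K ⊔ P) := by
    have := Subgroup.card_mul_index (K.subgroupOf (K ⊔ P))
    rw [Nat.card_congr (Subgroup.subgroupOfEquivOfLe (le_sup_left : K ≤ K ⊔ P)).toEquiv] at this
    exact this
  have h1 : K.relIndex P ≤ K.relIndex (K ⊔ P) :=
    Subgroup.relIndex_le_of_le_right le_sup_right (Subgroup.index_ne_zero_of_finite)
  have h2 : p ≤ K.relIndex P := by
    obtain ⟨n, hn⟩ := (IsPGroup.iff_card (p := p) (G := P)).1 hP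
    have h3 : K.relIndex P ∣ p ^ n := by
      rw [← hn]
      exact Subgroup.index_dvd_card _
    obtain ⟨j, -, hj⟩ := (Nat.dvd_prime_pow hp).1 h3
    rw [hj]
    rcases Nat.eq_zero_or_pos j with rfl | hj0
    · exfalso
      apply h
      rw [pow_zero] at hj
      exact Subgroup.relIndex_eq_one.1 hj
    · calc p = p ^ 1 := (pow_one p).symm
        _ ≤ p ^ j := Nat.pow_le_pow_right hp.pos hj0
  have h3 : p + 1 ≤ K.relIndex (K ⊔ P) := by
    rcases Nat.lt_or_ge p (K.relIndex (K ⊔ P)) with h4 | h4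
    · exact h4
    · exfalso
      apply hrp
      have : K.relIndex (K ⊔ P) = p := le_antisymm h4 (h2.trans h1)
      rw [this]
  rw [← hc, mul_comm]
  exact Nat.mul_le_mul_left _ h3

variable {V : Type*} [AddCommGroup V] [DistribMulAction L V]

/-- the fixed points of a subgroup -/
def F (V : Type*) [AddCommGroup V] [DistribMulAction L V] (K : Subgroup L) : AddSubgroup V where
  carrier := {v | ∀ g ∈ K, g • v = v}
  zero_mem' := fun g _ => smul_zero g
  add_mem' := fun ha hb g hg => by rw [smul_add, ha g hg, hb g hg]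
  neg_mem' := fun ha g hg => by rw [smul_neg, ha g hg]

theorem mem_F {K : Subgroup L} {v : V} : v ∈ F V K ↔ ∀ g ∈ K, g • v = v := Iff.rfl

theorem F_sup (K M : Subgroup L) : F V (K ⊔ M) = F V K ⊓ F V M := by
  ext v
  rw [AddSubgroup.mem_inf, mem_F, mem_F, mem_F]
  constructor
  · intro h
    exact ⟨fun g hg => h g (le_sup_left (a := K) hg), fun g hg => h g (le_sup_right (b := M) hg)⟩
  · rintro ⟨h1, h2⟩ g hg
    have h3 : K ⊔ M ≤ stabilizer L v := sup_le (fun g hg => mem_stabilizer_iff.2 (h1 g hg))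
      (fun g hg => mem_stabilizer_iff.2 (h2 g hg))
    exact mem_stabilizer_iff.1 (h3 hg)

theorem F_anti {K M : Subgroup L} (h : K ≤ M) : F V M ≤ F V K := fun _ hv g hg => hv g (h hg)

/-- conjugate subgroups have the same number of fixed points -/
theorem card_F_conj (K : Subgroup L) (g : L) :
    Nat.card (F V (K.map (MulAut.conj g).toMonoidHom)) = Nat.card (F V K) := by
  refine (Nat.card_congr ?_).symm
  refine
    { toFun := fun v => ⟨g • (v : V), ?_⟩
      invFun := fun v => ⟨g⁻¹ • (v : V), ?_⟩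
      left_inv := fun v => Subtype.ext (inv_smul_smul g (v : V))
      right_inv := fun v => Subtype.ext (smul_inv_smul g (v : V)) }
  · rintro _ ⟨k, hk, rfl⟩
    show (g * k * g⁻¹) • g • (v : V) = g • (v : V)
    rw [← mul_smul, inv_mul_cancel_right, mul_smul, v.2 k hk]
  · intro k hk
    have h1 := v.2 (g * k * g⁻¹) ⟨k, hk, rfl⟩
    rw [← mul_smul]
    have h2 : k * g⁻¹ = g⁻¹ * (g * k * g⁻¹) := by group
    rw [h2, mul_smul, h1]

theorem index_F_conj [Finite V] (K : Subgroup L) (g : L) :
    (F V (K.map (MulAut.conj g).toMonoidHom)).index = (F V K).index := by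
  have h1 := AddSubgroup.card_mul_index (F V (K.map (MulAut.conj g).toMonoidHom))
  have h2 := AddSubgroup.card_mul_index (F V K)
  rw [card_F_conj] at h1
  have h3 : 0 < Nat.card (F V K) := Nat.card_pos
  exact Nat.eq_of_mul_eq_mul_left h3 (h1.trans h2.symm)

/-- the number of fixed points of two Sylow subgroups -/
theorem card_F_sylow [Finite L] (hp : p.Prime) (P Q : Sylow p L) : Nat.card (F V (Q : Subgroup L)) = Nat.card (F V (P : Subgroup L)) := by
  have : Fact p.Prime := ⟨hp⟩
  obtain ⟨g, rfl⟩ := MulAction.exists_smul_eq L P Q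
  rw [← card_F_conj (P : Subgroup L) g]
  congr 2

/-- every vector is fixed by a Sylow subgroup -/
theorem exists_sylow [Finite L] (hp : p.Prime) (hfix : ∀ v : V, ¬ p ∣ (stabilizer L v).index) (v : V) :
    ∃ Q : Sylow p L, v ∈ F V (Q : Subgroup L) := by
  have : Fact p.Prime := ⟨hp⟩
  let R : Sylow p (stabilizer L v) := default
  have h1 : IsPGroup p ((R : Subgroup (stabilizer L v)).map (stabilizer L v).subtype) := R.2.map _
  have h2 : ¬ p ∣ ((R : Subgroup (stabilizer L v)).map (stabilizer L v).subtype).index := by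
    rw [Subgroup.index_map_subtype]
    intro h
    rcases hp.dvd_mul.1 h with h | h
    · exact R.not_dvd_index' (by
        exact Subgroup.index_ne_zero_of_finite) h
    · exact hfix v h
  refine ⟨h1.toSylow h2, ?_⟩
  intro g hg
  obtain ⟨x, -, rfl⟩ := hg
  exact mem_stabilizer_iff.1 x.2

/-- the covering bound -/
theorem card_le [Finite L] [Finite V] (hp : p.Prime) (hfix : ∀ v : V, ¬ p ∣ (stabilizer L v).index) (P : Sylow p L) :
    Nat.card V ≤ Nat.card (Sylow p L) * Nat.card (F V (P : Subgroup L)) := by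
  classical
  have := Fintype.ofFinite (Sylow p L)
  have := Fintype.ofFinite V
  have h1 : Nat.card V ≤ Nat.card (Σ Q : Sylow p L, F V (Q : Subgroup L)) := by
    apply Nat.card_le_card_of_injective
      (fun v : V => (⟨(exists_sylow hp hfix v).choose, ⟨v, (exists_sylow hp hfix v).choose_spec⟩⟩ :
        Σ Q : Sylow p L, F V (Q : Subgroup L)))
    intro v w h
    have h2 := congrArg (fun x : Σ Q : Sylow p L, F V (Q : Subgroup L) => (x.2 : V)) h
    exact h2
  refine h1.trans (le_of_eq ?_)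
  rw [Nat.card_sigma, Finset.sum_congr rfl fun Q _ => card_F_sylow hp P Q, Finset.sum_const, Finset.card_univ,
    smul_eq_mul, Nat.card_eq_fintype_card (α := Sylow p L)]

section cover

variable {S : Type*} [Group S] {π : L →* S} {N a : ℕ}

/-- the Sylow subgroup of the cover -/
theorem card_P [Finite L] (hp : p.Prime) (hπ : Function.Surjective π) (hk : ¬ p ∣ Nat.card π.ker) (hN : ¬ p ∣ N)
    (hcard : Nat.card S = N * p ^ a) (P : Sylow p L) : Nat.card P = p ^ a := by
  have : Fact p.Prime := ⟨hp⟩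
  have h1 : Nat.card L = Nat.card S * Nat.card π.ker := by
    have h2 := Subgroup.card_eq_card_quotient_mul_card_subgroup π.ker
    rwa [Nat.card_congr (QuotientGroup.quotientKerEquivOfSurjective π hπ).toEquiv] at h2
  rw [Sylow.card_eq_multiplicity]
  congr 1
  rw [h1, hcard]
  have hN0 : N ≠ 0 := fun h => hN (h ▸ dvd_zero p)
  have hk0 : Nat.card π.ker ≠ 0 := Nat.card_pos.ne'
  rw [Nat.factorization_mul (mul_ne_zero hN0 (pow_ne_zero _ hp.ne_zero)) hk0,
    Nat.factorization_mul hN0 (pow_ne_zero _ hp.ne_zero), Finsupp.add_apply, Finsupp.add_apply,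
    Nat.factorization_eq_zero_of_not_dvd hN, Nat.factorization_eq_zero_of_not_dvd hk, hp.factorization_pow,
    Finsupp.single_eq_same]
  omega

theorem card_ker_sup [Finite L] (hp : p.Prime) (hk : ¬ p ∣ Nat.card π.ker)
    (P : Sylow p L) : Nat.card ↥(π.ker ⊔ (P : Subgroup L)) = Nat.card π.ker * Nat.card P := by
  have : Fact p.Prime := ⟨hp⟩
  obtain ⟨n, hn⟩ := (IsPGroup.iff_card (p := p) (G := P)).1 P.2
  have hcop : (Nat.card π.ker).Coprime (Nat.card P) := by
    rw [hn]
    exact Nat.Coprime.pow_right n ((Nat.Prime.coprime_iff_not_dvd hp).2 hk).symm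
  have hdis : π.ker ⊓ (P : Subgroup L) = ⊥ := (Subgroup.disjoint_of_coprime_natCard hcop).eq_bot
  have h1 := Subgroup.card_mul_index (π.ker.subgroupOf (π.ker ⊔ (P : Subgroup L)))
  rw [Nat.card_congr (Subgroup.subgroupOfEquivOfLe (le_sup_left : π.ker ≤ π.ker ⊔ (P : Subgroup L))).toEquiv] at h1
  rw [← h1]
  congr 1
  have h2 : π.ker.relIndex (π.ker ⊔ (P : Subgroup L)) = π.ker.relIndex (P : Subgroup L) := by
    rw [Subgroup.relIndex_sup_left]
  have h3 : π.ker.relIndex (P : Subgroup L) = Nat.card P := by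
    rw [← Subgroup.inf_relIndex_right, hdis, Subgroup.relIndex_bot_left]
  exact h2.trans h3

theorem card_sylow_le [Finite L] (hp : p.Prime) (hπ : Function.Surjective π)
    (hcen : π.ker ≤ center L) (hk : ¬ p ∣ Nat.card π.ker) (hN : ¬ p ∣ N) (hcard : Nat.card S = N * p ^ a) :
    Nat.card (Sylow p L) ≤ N := by
  have : Fact p.Prime := ⟨hp⟩
  let P : Sylow p L := default
  have h1 : Nat.card L = Nat.card S * Nat.card π.ker := by
    have h2 := Subgroup.card_eq_card_quotient_mul_card_subgroup π.ker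
    rwa [Nat.card_congr (QuotientGroup.quotientKerEquivOfSurjective π hπ).toEquiv] at h2
  rw [Sylow.card_eq_index_normalizer P]
  have h2 : π.ker ⊔ (P : Subgroup L) ≤ normalizer ((P : Subgroup L) : Set L) := by
    refine sup_le (fun z hz => ?_) le_normalizer
    have hz' := fun t => mem_center_iff.1 (hcen hz) t
    rw [Subgroup.mem_normalizer_iff]
    intro t
    have h3 : z * t * z⁻¹ = t := by rw [← hz' t, mul_inv_cancel_right]
    rw [h3]
  have h3 : (normalizer ((P : Subgroup L) : Set L)).index ≤ (π.ker ⊔ (P : Subgroup L)).index :=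
    Nat.le_of_dvd (Nat.pos_of_ne_zero Subgroup.index_ne_zero_of_finite) (Subgroup.index_dvd_of_le h2)
  refine h3.trans (le_of_eq ?_)
  have h4 := Subgroup.card_mul_index (π.ker ⊔ (P : Subgroup L))
  rw [card_ker_sup hp hk, card_P hp hπ hk hN hcard P, h1, hcard] at h4
  have h5 : 0 < Nat.card π.ker * p ^ a := Nat.mul_pos Nat.card_pos (pow_pos hp.pos _)
  apply Nat.eq_of_mul_eq_mul_left h5
  rw [h4]; ring

/-- **The covering bound**: `|V : C_V(P)| ≤ N`. -/
theorem cov [Finite L] [Finite V] (hp : p.Prime) (hπ : Function.Surjective π)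
    (hcen : π.ker ≤ center L) (hk : ¬ p ∣ Nat.card π.ker) (hN : ¬ p ∣ N) (hcard : Nat.card S = N * p ^ a)
    (hfix : ∀ v : V, ¬ p ∣ (stabilizer L v).index) (P : Sylow p L) : (F V (P : Subgroup L)).index ≤ N := by
  have h1 := card_le hp hfix P
  have h2 := card_sylow_le hp hπ hcen hk hN hcard
  have h3 := AddSubgroup.card_mul_index (F V (P : Subgroup L))
  have h4 : 0 < Nat.card (F V (P : Subgroup L)) := Nat.card_pos
  rw [← h3, mul_comm] at h1
  exact (Nat.le_of_mul_le_mul_right h1 h4).trans h2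

/-- the index of the fixed space is a power of `p` -/
theorem index_pow [Finite V] (hp : p.Prime) (hV : ∀ v : V, p • v = 0) (W : AddSubgroup V) : ∃ e, W.index = p ^ e := by
  have : Fact p.Prime := ⟨hp⟩
  have h1 : IsPGroup p (Multiplicative V) := by
    intro v
    refine ⟨1, ?_⟩
    rw [pow_one]
    exact hV v
  obtain ⟨n, hn⟩ := (IsPGroup.iff_card (p := p) (G := Multiplicative V)).1 h1
  have hn' : Nat.card V = p ^ n := hn
  have h2 : W.index ∣ p ^ n := hn' ▸ AddSubgroup.index_dvd_card W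
  obtain ⟨e, -, he⟩ := (Nat.dvd_prime_pow hp).1 h2
  exact ⟨e, he⟩

/-- The covering bound with a power of `p`. -/
theorem cov_pow [Finite L] [Finite V] (hp : p.Prime) (hπ : Function.Surjective π)
    (hcen : π.ker ≤ center L) (hk : ¬ p ∣ Nat.card π.ker) (hN : ¬ p ∣ N) (hcard : Nat.card S = N * p ^ a)
    (hV : ∀ v : V, p • v = 0) (hfix : ∀ v : V, ¬ p ∣ (stabilizer L v).index) (P : Sylow p L) {c : ℕ}
    (hc : N < p ^ (c + 1)) : ∃ e ≤ c, (F V (P : Subgroup L)).index = p ^ e := by
  obtain ⟨e, he⟩ := index_pow hp hV (F V (P : Subgroup L))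
  refine ⟨e, ?_, he⟩
  have h1 := cov hp hπ hcen hk hN hcard hfix P
  rw [he] at h1
  exact Nat.lt_succ_iff.1 ((Nat.pow_lt_pow_iff_right hp.one_lt).1 (h1.trans_lt hc))

/-- the chain -/
theorem gen_aux [Finite L] [Finite V] (hp : p.Prime) (P : Sylow p L)
    (hgen : ∀ K : Subgroup L, (∀ g : L, (P : Subgroup L).map (MulAut.conj g).toMonoidHom ≤ π.ker ⊔ K) → π.ker ⊔ K = ⊤)
    (hfin : ∀ K : Subgroup L, π.ker ⊔ K = ⊤ → K = ⊤) :
    ∀ n : ℕ, ∀ K : Subgroup L, Nat.card L - Nat.card ↥(π.ker ⊔ K) ≤ n → (P : Subgroup L) ≤ K →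
      ∀ j : ℕ, (p + 1) ^ j * (Nat.card π.ker * Nat.card P) ≤ Nat.card ↥(π.ker ⊔ K) →
        (F V K).index ≤ (F V (P : Subgroup L)).index ^ (j + 1) →
        ∃ j : ℕ, (p + 1) ^ j * (Nat.card π.ker * Nat.card P) ≤ Nat.card L ∧
          (F V (⊤ : Subgroup L)).index ≤ (F V (P : Subgroup L)).index ^ (j + 1) := by
  have : Fact p.Prime := ⟨hp⟩
  intro n
  induction n with
  | zero =>
    intro K hn hPK j hj hF
    have h1 : Nat.card ↥(π.ker ⊔ K) = Nat.card L :=
      le_antisymm (Subgroup.card_le_card_group _) (by omega)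
    have h2 : π.ker ⊔ K = ⊤ := (Subgroup.card_eq_iff_eq_top _).1 h1
    have h3 := hfin K h2
    subst h3
    exact ⟨j, h1 ▸ hj, hF⟩
  | succ n ih =>
    intro K hn hPK j hj hF
    by_cases htop : π.ker ⊔ K = ⊤
    · have h3 := hfin K htop
      subst h3
      refine ⟨j, ?_, hF⟩
      rw [htop, Subgroup.card_top] at hj
      exact hj
    · have h4 : ∃ g : L, ¬ (P : Subgroup L).map (MulAut.conj g).toMonoidHom ≤ π.ker ⊔ K := by
        by_contra hcon
        push Not at hcon
        exact htop (hgen K hcon)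
      obtain ⟨g, hg⟩ := h4
      have hidx : ¬ p ∣ (π.ker ⊔ K).index := by
        intro h
        exact P.not_dvd_index' Subgroup.index_ne_zero_of_finite
          (h.trans (Subgroup.index_dvd_of_le (hPK.trans le_sup_right)))
      have h5 := step hp hidx (P.2.map (MulAut.conj g).toMonoidHom) hg
      rw [sup_assoc] at h5
      have h6 : 0 < Nat.card ↥(π.ker ⊔ K) := Nat.card_pos
      have h7 : Nat.card ↥(π.ker ⊔ (K ⊔ (P : Subgroup L).map (MulAut.conj g).toMonoidHom)) ≤ Nat.card L :=
        Subgroup.card_le_card_group _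
      refine ih (K ⊔ (P : Subgroup L).map (MulAut.conj g).toMonoidHom) ?_ (hPK.trans le_sup_left) (j + 1) ?_ ?_
      · have h8 : Nat.card ↥(π.ker ⊔ K) < (p + 1) * Nat.card ↥(π.ker ⊔ K) := by
          have := hp.two_le
          nlinarith
        omega
      · refine le_trans ?_ h5
        rw [pow_succ]
        calc (p + 1) ^ j * (p + 1) * (Nat.card π.ker * Nat.card P)
            = (p + 1) * ((p + 1) ^ j * (Nat.card π.ker * Nat.card P)) := by ring
          _ ≤ _ := Nat.mul_le_mul_left _ hj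
      · rw [F_sup]
        refine AddSubgroup.index_inf_le.trans ?_
        rw [index_F_conj, pow_succ _ (j + 1)]
        exact Nat.mul_le_mul_right _ hF

theorem eq_top_of_sup (hperf : commutator L = ⊤) (hcen : π.ker ≤ center L) (K : Subgroup L)
    (h : π.ker ⊔ K = ⊤) : K = ⊤ := by
  have hn : K.Normal := by
    constructor
    intro k hk g
    have hg : g ∈ π.ker ⊔ K := h ▸ mem_top g
    have : π.ker.Normal := inferInstance
    obtain ⟨z, hz, x, hx, rfl⟩ := Subgroup.mem_sup_of_normal_left.1 hg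
    have h1 : z * x * k * (z * x)⁻¹ = x * k * x⁻¹ := by
      have h2 := mem_center_iff.1 (hcen hz) (x * k * x⁻¹)
      calc z * x * k * (z * x)⁻¹ = z * (x * k * x⁻¹) * z⁻¹ := by group
        _ = (x * k * x⁻¹) * z * z⁻¹ := by rw [h2]
        _ = _ := by group
    rw [h1]
    exact mul_mem (mul_mem hx hk) (inv_mem hx)
  have hc : commutator L ≤ K := by
    rw [commutator_def, commutator_le]
    intro g _ l _
    have hg : g ∈ π.ker ⊔ K := h ▸ mem_top g
    have hl : l ∈ π.ker ⊔ K := h ▸ mem_top l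
    obtain ⟨z, hz, x, hx, rfl⟩ := Subgroup.mem_sup_of_normal_left.1 hg
    obtain ⟨w, hw, y, hy, rfl⟩ := Subgroup.mem_sup_of_normal_left.1 hl
    have hz' := fun t => mem_center_iff.1 (hcen hz) t
    have hw' := fun t => mem_center_iff.1 (hcen hw) t
    have h1 : ⁅z * x, w * y⁆ = ⁅x, y⁆ := by
      rw [commutatorElement_def, commutatorElement_def]
      have e1 : z * x * (w * y) = x * y * (z * w) := by
        calc z * x * (w * y) = (z * (x * (w * y))) := by group
          _ = x * (w * y) * z := (hz' _).symm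
          _ = x * (y * w) * z := by rw [hw' y]
          _ = x * y * (w * z) := by group
          _ = x * y * (z * w) := by rw [hz' w]
      have e2 : w * y * (z * x) = y * x * (z * w) := by
        calc w * y * (z * x) = w * (y * (z * x)) := by group
          _ = y * (z * x) * w := (hw' _).symm
          _ = y * (x * z) * w := by rw [hz' x]
          _ = y * x * (z * w) := by group
      have e3 : z * x * (w * y) * (z * x)⁻¹ * (w * y)⁻¹ = (z * x * (w * y)) * (w * y * (z * x))⁻¹ := by group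
      rw [e3, e1, e2]
      group
    rw [h1, commutatorElement_def]
    exact mul_mem (mul_mem (mul_mem hx hy) (inv_mem hx)) (inv_mem hy)
  exact top_le_iff.1 (hperf ▸ hc)

/-- **The chain bound.** -/
theorem gen [Finite L] [Finite V] [IsSimpleGroup S] (hp : p.Prime) (hperf : commutator L = ⊤)
    (hπ : Function.Surjective π) (hcen : π.ker ≤ center L) (hk : ¬ p ∣ Nat.card π.ker) (hN : ¬ p ∣ N) (ha : a ≠ 0)
    (hcard : Nat.card S = N * p ^ a) (P : Sylow p L) (h0 : ∀ v : V, (∀ g : L, g • v = v) → v = 0) :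
    ∃ j : ℕ, (p + 1) ^ j ≤ N ∧ Nat.card V ≤ (F V (P : Subgroup L)).index ^ (j + 1) := by
  have : Fact p.Prime := ⟨hp⟩
  have hPc := card_P hp hπ hk hN hcard P
  have hL : Nat.card L = Nat.card S * Nat.card π.ker := by
    have h2 := Subgroup.card_eq_card_quotient_mul_card_subgroup π.ker
    rwa [Nat.card_congr (QuotientGroup.quotientKerEquivOfSurjective π hπ).toEquiv] at h2
  have hgen : ∀ K : Subgroup L, (∀ g : L, (P : Subgroup L).map (MulAut.conj g).toMonoidHom ≤ π.ker ⊔ K) →
      π.ker ⊔ K = ⊤ := by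
    intro K hK
    have h1 : normalClosure ((P : Subgroup L) : Set L) ≤ π.ker ⊔ K := by
      rw [normalClosure, closure_le]
      intro x hx
      obtain ⟨y, hy, hyx⟩ := Group.mem_conjugatesOfSet_iff.1 hx
      obtain ⟨g, rfl⟩ := isConj_iff.1 hyx
      exact hK g ⟨y, hy, rfl⟩
    have h2 : (normalClosure ((P : Subgroup L) : Set L)).map π = ⊤ := by
      have hn : ((normalClosure ((P : Subgroup L) : Set L)).map π).Normal :=
        Subgroup.normalClosure_normal.map π hπ
      rcases hn.eq_bot_or_eq_top with h3 | h3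
      · exfalso
        have h4 : (P : Subgroup L) ≤ π.ker := by
          intro x hx
          have h5 : π x ∈ (normalClosure ((P : Subgroup L) : Set L)).map π := ⟨x, subset_normalClosure hx, rfl⟩
          rw [h3, mem_bot] at h5
          exact h5
        have h6 : Nat.card P ∣ Nat.card π.ker := Subgroup.card_dvd_of_le h4
        rw [hPc] at h6
        exact hk ((dvd_pow_self p ha).trans h6)
      · exact h3
    rw [eq_top_iff]
    intro x _
    have h3 : π x ∈ (normalClosure ((P : Subgroup L) : Set L)).map π := h2 ▸ mem_top _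
    obtain ⟨y, hy, hyx⟩ := h3
    have h4 : x * y⁻¹ ∈ π.ker := by rw [MonoidHom.mem_ker, map_mul, map_inv, hyx, mul_inv_cancel]
    have h5 : x = (x * y⁻¹) * y := by group
    rw [h5]
    exact mul_mem (le_sup_left (a := π.ker) h4) (h1 hy)
  obtain ⟨j, hj1, hj2⟩ := gen_aux (V := V) hp P hgen (eq_top_of_sup hperf hcen) (Nat.card L) (P : Subgroup L)
    (Nat.sub_le _ _) le_rfl 0 (by rw [pow_zero, one_mul, card_ker_sup hp hk]) (by rw [zero_add, pow_one])
  refine ⟨j, ?_, ?_⟩
  · rw [hL, hcard, hPc] at hj1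
    have h5 : 0 < Nat.card π.ker * p ^ a := Nat.mul_pos Nat.card_pos (pow_pos hp.pos _)
    have h6 : (p + 1) ^ j * (Nat.card π.ker * p ^ a) ≤ N * (Nat.card π.ker * p ^ a) := by
      refine hj1.trans (le_of_eq ?_)
      ring
    exact Nat.le_of_mul_le_mul_right h6 h5
  · refine le_trans (le_of_eq ?_) hj2
    have h6 : F V (⊤ : Subgroup L) = ⊥ := by
      rw [AddSubgroup.eq_bot_iff_forall]
      intro v hv
      exact h0 v fun g => hv g (mem_top g)
    rw [h6, AddSubgroup.index_bot]

/-- **The chain bound, numerical form.** -/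
theorem chain [Finite L] [Finite V] [IsSimpleGroup S] (hp : p.Prime) (hperf : commutator L = ⊤)
    (hπ : Function.Surjective π) (hcen : π.ker ≤ center L) (hk : ¬ p ∣ Nat.card π.ker) (hN : ¬ p ∣ N) (ha : a ≠ 0)
    (hcard : Nat.card S = N * p ^ a) (hV : ∀ v : V, p • v = 0) (h0 : ∀ v : V, (∀ g : L, g • v = v) → v = 0)
    (hfix : ∀ v : V, ¬ p ∣ (stabilizer L v).index) {c k D : ℕ} (hc : N < p ^ (c + 1)) (hkk : N < (p + 1) ^ k)
    (hD : p ^ D ≤ Nat.card V) (hnum : c * k < D) : False := by
  have : Fact p.Prime := ⟨hp⟩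
  let P : Sylow p L := default
  obtain ⟨e, he, hi⟩ := cov_pow hp hπ hcen hk hN hcard hV hfix P hc
  obtain ⟨j, hj, hj2⟩ := gen (V := V) hp hperf hπ hcen hk hN ha hcard P h0
  have h1 : j < k := (Nat.pow_lt_pow_iff_right (by have := hp.two_le; omega)).1 (hj.trans_lt hkk)
  have h2 : p ^ D ≤ p ^ (e * (j + 1)) := by
    rw [pow_mul, ← hi]
    exact hD.trans hj2
  have h3 := (Nat.pow_le_pow_iff_right hp.one_lt).1 h2
  have h4 : e * (j + 1) ≤ c * k := Nat.mul_le_mul he h1
  omega

end cover

end Cfsg.Agent.H388.RI
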