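import Cfsg.Agent.H203.LSDef
import Cfsg.Agent.S5549
import Cfsg.Agent.S0359
import Cfsg.Agent.S0360
import Cfsg.Agent.S0361
import Cfsg.Agent.S1605
import Cfsg.Agent.H857.Orbits
import Cfsg.Agent.Schreier.CocodeSys

/-!
# S4816, module side: the weights of `2^11` in groups with a cocode system (helper388)

`Sys e` (24 commuting elements, permuted by `M24`, octad products trivial: `Fi24'`), `ρ` a representation over a field of
characteristic `≠ 2` in which the `e p` do not all act trivially: the weights are the octads (759) or the dodecads modulo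
complements (1288): `main`.
-/

set_option autoImplicit false
set_option linter.unusedSectionVars false

open scoped Pointwise

namespace Cfsg.Agent.H388.RI.FiW

open Cfsg Cfsg.Agent.Schreier.CocodeSys
open Cfsg.Agent.H852.GolayMod (ind ind_apply ind_symmDiff hammingNorm_ind mem_octads_iff mem_dodecads_iff ind_mem_iff)
open Cfsg.Agent.S5549 (fs fs_apply fs_eq_dot mem_of_orth)

section lin

variable {k W ι : Type*} [Field k] [AddCommGroup W] [Module k W]

/-- commuting involutions have a common eigenvector -/
theorem exists_common (f : ι → Module.End k W) (hsq : ∀ i, f i * f i = 1)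
    (hc : ∀ i j, f i * f j = f j * f i) {i0 : ι} (hi0 : f i0 ≠ 1) (s : Finset ι) :
    ∃ v : W, v ≠ 0 ∧ f i0 v = -v ∧ ∀ i ∈ s, f i v = v ∨ f i v = -v := by
  classical
  induction s using Finset.induction_on with
  | empty =>
    obtain ⟨w, hw⟩ : ∃ w, f i0 w ≠ w := by
      by_contra hcon
      push Not at hcon
      exact hi0 (LinearMap.ext hcon)
    have h1 : f i0 (f i0 w) = w := by
      rw [← Module.End.mul_apply, hsq]; rfl
    refine ⟨w - f i0 w, sub_ne_zero.2 hw.symm, ?_, by simp⟩
    rw [map_sub, h1, neg_sub]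
  | insert j s _ ih =>
    obtain ⟨v, hv, hv0, hvs⟩ := ih
    have h1 : f j (f j v) = v := by
      rw [← Module.End.mul_apply, hsq]; rfl
    have hcom : ∀ i, f i (f j v) = f j (f i v) := fun i => by
      rw [← Module.End.mul_apply, hc, Module.End.mul_apply]
    by_cases h3 : v + f j v = 0
    · refine ⟨v, hv, hv0, ?_⟩
      intro i hi
      rcases Finset.mem_insert.1 hi with rfl | hi
      · right
        exact (neg_eq_of_add_eq_zero_right h3).symm
      · exact hvs i hi
    · refine ⟨v + f j v, h3, ?_, ?_⟩
      · rw [map_add, hcom, hv0, map_neg]; abel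
      · intro i hi
        rcases Finset.mem_insert.1 hi with rfl | hi
        · left
          rw [map_add, h1, add_comm]
        · rcases hvs i hi with h4 | h4
          · left
            rw [map_add, hcom, h4]
          · right
            rw [map_add, hcom, h4, map_neg]; abel

end lin

section sys

variable {K : Type*} [Group K] {e : GolayPt → K} {k W : Type*} [Field k] [AddCommGroup W] [Module k W]
  {ρ : K →* Module.End k W}

/-- the sign -/
def sgn (k : Type*) [Field k] (S : Finset GolayPt) (p : GolayPt) : k := if p ∈ S then -1 else 1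

theorem sgn_sq (S : Finset GolayPt) (p : GolayPt) : sgn k S p * sgn k S p = 1 := by
  unfold sgn
  split <;> ring

theorem sgn_compl (S : Finset GolayPt) (p : GolayPt) : sgn k Sᶜ p = - sgn k S p := by
  unfold sgn
  by_cases h : p ∈ S
  · simp [h]
  · simp [h]

theorem sgn_smul (g : M24) (S : Finset GolayPt) (p : GolayPt) : sgn k (g • S) p = sgn k S (g⁻¹ • p) := by
  unfold sgn
  have h2 : (p ∈ g • S) ↔ g⁻¹ • p ∈ S := Finset.inv_smul_mem_iff.symm
  by_cases h : p ∈ g • S
  · rw [if_pos h, if_pos (h2.1 h)]
  · rw [if_neg h, if_neg (fun h' => h (h2.2 h'))]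

/-- the weight given by `S` occurs -/
def Occ (e : GolayPt → K) (ρ : K →* Module.End k W) (S : Finset GolayPt) : Prop :=
  ∃ v : W, v ≠ 0 ∧ ∀ p, ρ (e p) v = (sgn k S p * sgn k S none) • v

theorem Occ.compl {S : Finset GolayPt} (h : Occ e ρ S) : Occ e ρ Sᶜ := by
  obtain ⟨v, hv, h⟩ := h
  refine ⟨v, hv, fun p => ?_⟩
  rw [h p, sgn_compl, sgn_compl, neg_mul_neg]

theorem Occ.smul (Y : Sys e) {S : Finset GolayPt} (h : Occ e ρ S) (g : M24) : Occ e ρ (g • S) := by
  obtain ⟨v, hv, h⟩ := h
  obtain ⟨n, hn⟩ := Y.full g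
  have hn' : ∀ p, n * e p * n⁻¹ = e (g • p) * e (g • none) := hn
  have hinj : ∀ u w : W, ρ n u = ρ n w → u = w := by
    intro u w huw
    have h1 : ∀ x : W, ρ n⁻¹ (ρ n x) = x := fun x => by
      rw [← Module.End.mul_apply, ← map_mul, inv_mul_cancel, map_one]; rfl
    rw [← h1 u, huw, h1]
  have key : ∀ p, ρ (e (g • p)) (ρ (e (g • none)) (ρ n v)) = (sgn k S p * sgn k S none) • ρ n v := by
    intro p
    rw [← Module.End.mul_apply, ← map_mul, ← hn' p, ← Module.End.mul_apply, ← map_mul, inv_mul_cancel_right,
      map_mul, Module.End.mul_apply, h p, map_smul]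
  have h0 : ρ (e (g • none)) (ρ n v) = (sgn k S (g⁻¹ • none) * sgn k S none) • ρ n v := by
    have h1 := key (g⁻¹ • none)
    rw [smul_inv_smul] at h1
    have h2 : ρ (e none) = 1 := by rw [Y.zero, map_one]
    rw [h2] at h1
    exact h1
  refine ⟨ρ n v, ?_, fun q => ?_⟩
  · intro h1
    apply hv
    apply hinj
    rw [h1, map_zero]
  · have h1 := key (g⁻¹ • q)
    rw [smul_inv_smul, h0, map_smul] at h1
    rw [sgn_smul, sgn_smul]
    have h3 := congrArg (fun x => (sgn k S (g⁻¹ • none) * sgn k S none) • x) h1
    simp only [smul_smul] at h3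
    have h4 : sgn k S (g⁻¹ • none) * sgn k S none * (sgn k S (g⁻¹ • none) * sgn k S none) = 1 := by
      have e1 := sgn_sq (k := k) S (g⁻¹ • none)
      have e2 := sgn_sq (k := k) S none
      linear_combination (sgn k S none * sgn k S none) * e1 + e2
    rw [h4, one_smul] at h3
    rw [h3]
    congr 1
    have e2 := sgn_sq (k := k) S none
    linear_combination (sgn k S (g⁻¹ • none) * sgn k S (g⁻¹ • q)) * e2

/-- the octad relations on a common eigenvector -/
theorem prod_oct (Y : Sys e) {v : W} (hv : v ≠ 0) {χ : GolayPt → k} (hχ : ∀ p, ρ (e p) v = χ p • v)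
    (hsq : ∀ p, χ p * χ p = 1) {O : Finset GolayPt} (hO : O ∈ octads) : ∏ p ∈ O, χ p = 1 := by
  classical
  obtain ⟨l, hl, hlO, hl1⟩ := Y.oct
  obtain ⟨g, hg⟩ := Cfsg.Agent.S0367.result _ _ hlO hO
  obtain ⟨n, hn⟩ := Y.full g
  have hn' : ∀ p, n * e p * n⁻¹ = e (g • p) * e (g • none) := hn
  have hprod : ∀ l : List GolayPt, n * (l.map e).prod * n⁻¹ = (l.map fun p => e (g • p) * e (g • none)).prod := by
    intro l
    induction l with
    | nil => simp
    | cons a l ih =>
      rw [List.map_cons, List.prod_cons, List.map_cons, List.prod_cons, ← ih, ← hn']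
      group
  have hv2 : ∀ l : List GolayPt, ρ ((l.map fun p => e (g • p) * e (g • none)).prod) v =
      (l.map fun p => χ (g • p) * χ (g • none)).prod • v := by
    intro l
    induction l with
    | nil => simp
    | cons a l ih =>
      rw [List.map_cons, List.prod_cons, List.map_cons, List.prod_cons, map_mul, Module.End.mul_apply, ih, map_smul,
        map_mul, Module.End.mul_apply, hχ, map_smul, hχ, smul_smul, smul_smul]
      congr 1
      ring
  have h1 := hv2 l
  rw [← hprod, hl1, mul_one, mul_inv_cancel, map_one] at h1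
  have h2 : (l.map fun p => χ (g • p) * χ (g • none)).prod = 1 := by
    have h3 : ((l.map fun p => χ (g • p) * χ (g • none)).prod - 1) • v = 0 := by
      rw [sub_smul, one_smul, ← h1]
      exact sub_self _
    rcases smul_eq_zero.1 h3 with h4 | h4
    · exact sub_eq_zero.1 h4
    · exact absurd h4 hv
  have h8 : l.length = 8 := by
    have : l.toFinset.card = 8 := hlO.2
    rwa [List.toFinset_card_of_nodup hl] at this
  have h5 : (l.map fun p => χ (g • p) * χ (g • none)).prod = (l.map fun p => χ (g • p)).prod := by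
    rw [List.prod_map_mul, List.map_const', List.prod_replicate, h8]
    have : χ (g • none) ^ 8 = (χ (g • none) * χ (g • none)) ^ 4 := by ring
    rw [this, hsq, one_pow, mul_one]
  rw [h5] at h2
  rw [← hg, ← Finset.image_smul, Finset.prod_image (fun a _ b _ h => MulAction.injective g h),
    List.prod_toFinset _ hl]
  exact h2

/-- some nontrivial weight occurs -/
theorem exists_occ (h2 : (2 : k) ≠ 0) (Y : Sys e) {p0 : GolayPt} (hne : ρ (e p0) ≠ 1) :
    ∃ S : Finset GolayPt, Occ e ρ S ∧ S ≠ ∅ ∧ none ∉ S ∧ ind S ∈ golayCode := by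
  classical
  obtain ⟨v, hv, hv0, hvs⟩ := exists_common (fun p => ρ (e p)) (fun p => by
    show ρ (e p) * ρ (e p) = 1
    rw [← map_mul, Y.sq, map_one]) (fun p q => by
    show ρ (e p) * ρ (e q) = ρ (e q) * ρ (e p)
    rw [← map_mul, ← map_mul, Y.comm]) hne Finset.univ
  have hvs' : ∀ p, ρ (e p) v = v ∨ ρ (e p) v = -v := fun p => hvs p (Finset.mem_univ p)
  have hvne : v ≠ -v := by
    intro h
    apply hv
    have h3 : (2 : k) • v = 0 := by
      rw [two_smul]
      nth_rw 1 [h]
      exact neg_add_cancel v
    exact (smul_eq_zero.1 h3).resolve_left h2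
  let S : Finset GolayPt := Finset.univ.filter fun p => ρ (e p) v = -v
  have hmem : ∀ p, p ∈ S ↔ ρ (e p) v = -v := fun p => by simp [S]
  have hnone : none ∉ S := by
    rw [hmem, Y.zero, map_one]
    exact hvne
  have hS : ∀ p, ρ (e p) v = sgn k S p • v := by
    intro p
    unfold sgn
    by_cases h : p ∈ S
    · rw [if_pos h, neg_smul, one_smul]
      exact (hmem p).1 h
    · rw [if_neg h, one_smul]
      rcases hvs' p with h1 | h1
      · exact h1
      · exact absurd ((hmem p).2 h1) h
  refine ⟨S, ⟨v, hv, fun p => ?_⟩, ?_, hnone, ?_⟩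
  · rw [hS p]
    have : sgn k S none = 1 := if_neg hnone
    rw [this, mul_one]
  · intro h
    have h1 : p0 ∈ S := (hmem p0).2 hv0
    rw [h] at h1
    exact absurd h1 (Finset.notMem_empty _)
  · apply mem_of_orth
    have hoct : ∀ w : GolayPt → ZMod 2, w ∈ golayCode → ∑ p, ind S p * w p = 0 := by
      intro w hw
      rw [Cfsg.Agent.SporadicA.OctadSpan.golayCode_eq_span_octads] at hw
      induction hw using Submodule.span_induction with
      | mem x hx =>
        have h1 := prod_oct (ρ := ρ) Y hv hS (fun p => sgn_sq S p) hx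
        have h3 : ∏ p ∈ support₂ x, sgn k S p = (-1) ^ ((support₂ x).filter (· ∈ S)).card := by
          unfold sgn
          rw [Finset.prod_ite, Finset.prod_const, Finset.prod_const_one, mul_one]
        rw [h3] at h1
        have h4 : Even ((support₂ x).filter (· ∈ S)).card := by
          by_contra ho
          rw [Nat.not_even_iff_odd] at ho
          rw [ho.neg_one_pow] at h1
          apply h2
          linear_combination -h1
        have h5 : ∀ p, ind S p * x p = if p ∈ (support₂ x).filter (· ∈ S) then 1 else 0 := by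
          intro p
          by_cases hp : p ∈ S
          · by_cases hx1 : x p = 0
            · rw [hx1, mul_zero, if_neg]
              intro h6
              have := (Finset.mem_filter.1 (Finset.mem_filter.1 h6).1).2
              exact this hx1
            · have h7 : ∀ a : ZMod 2, a ≠ 0 → a = 1 := by decide
              rw [h7 _ hx1, ind_apply, if_pos hp, one_mul, if_pos]
              rw [Finset.mem_filter]
              exact ⟨Finset.mem_filter.2 ⟨Finset.mem_univ _, hx1⟩, hp⟩
          · rw [ind_apply, if_neg hp, zero_mul, if_neg]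
            intro h6
            exact hp (Finset.mem_filter.1 h6).2
        rw [Finset.sum_congr rfl fun p _ => h5 p, Finset.sum_ite_mem, Finset.univ_inter, Finset.sum_const,
          nsmul_eq_mul, mul_one]
        exact (ZMod.natCast_eq_zero_iff _ 2).2 h4.two_dvd
      | zero => simp
      | add x y _ _ hx hy =>
        simp only [Pi.add_apply, mul_add, Finset.sum_add_distrib]
        rw [hx, hy, add_zero]
      | smul a x _ hx =>
        simp only [Pi.smul_apply, smul_eq_mul]
        have : ∀ p, ind S p * (a * x p) = a * (ind S p * x p) := fun p => by ring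
        rw [Finset.sum_congr rfl fun p _ => this p, ← Finset.mul_sum, hx, mul_zero]
    apply LinearMap.ext
    intro c
    rw [fs_eq_dot, LinearMap.zero_apply]
    exact hoct _ c.2

theorem sgn_eq (h2 : (2 : k) ≠ 0) {S T : Finset GolayPt} {p : GolayPt} (h : sgn k S p = sgn k T p) : p ∈ S ↔ p ∈ T := by
  unfold sgn at h
  by_cases h1 : p ∈ S <;> by_cases h3 : p ∈ T
  · simp [h1, h3]
  · rw [if_pos h1, if_neg h3] at h
    exact absurd (by linear_combination -h) h2
  · rw [if_neg h1, if_pos h3] at h
    exact absurd (by linear_combination h) h2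
  · simp [h1, h3]

/-- the weights given by two octads are different -/
theorem oct_inj (h2 : (2 : k) ≠ 0) {A B : Finset GolayPt} (hA : A ∈ octads) (hB : B ∈ octads)
    (hAB : ∀ p, sgn k A p * sgn k A none = sgn k B p * sgn k B none) : A = B := by
  have hA8 : A.card = 8 := hA.2
  have hB8 : B.card = 8 := hB.2
  by_cases h0 : sgn k A none = sgn k B none
  · ext p
    apply sgn_eq h2
    have h1 := hAB p
    rw [h0] at h1
    have h3 := sgn_sq (k := k) B none
    linear_combination (sgn k B none) * h1 - (sgn k A p) * h3 + (sgn k B p) * h3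
  · -- opposite signs: the sets are complementary
    exfalso
    have h1 : sgn k A none = - sgn k B none := by
      unfold sgn at h0 ⊢
      by_cases h3 : (none : GolayPt) ∈ A <;> by_cases h4 : (none : GolayPt) ∈ B
      · simp [h3, h4] at h0
      · simp [h3, h4]
      · simp [h3, h4]
      · simp [h3, h4] at h0
    have h5 : ∀ p, p ∈ A ∨ p ∈ B := by
      intro p
      by_contra hcon
      rw [not_or] at hcon
      have h6 := hAB p
      rw [h1] at h6
      have h7 : sgn k A p = 1 := if_neg hcon.1
      have h8 : sgn k B p = 1 := if_neg hcon.2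
      rw [h7, h8, one_mul, one_mul] at h6
      have h9 := sgn_sq (k := k) B none
      apply h2
      linear_combination -(sgn k B none) * h6 - 2 * h9
    have h6 : (Finset.univ : Finset GolayPt) ⊆ A ∪ B := fun x _ => Finset.mem_union.2 (h5 x)
    have h7 := Finset.card_le_card h6
    have h8 := Finset.card_union_le A B
    have h9 : (Finset.univ : Finset GolayPt).card = 24 := by decide
    omega

/-- the weights given by two dodecads avoiding a point are different -/
theorem dod_inj (h2 : (2 : k) ≠ 0) {A B : Finset GolayPt} (hA : none ∉ A) (hB : none ∉ B)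
    (hAB : ∀ p, sgn k A p * sgn k A none = sgn k B p * sgn k B none) : A = B := by
  have h1 : sgn k A none = 1 := if_neg hA
  have h3 : sgn k B none = 1 := if_neg hB
  ext p
  apply sgn_eq h2
  have h4 := hAB p
  rwa [h1, h3, mul_one, mul_one] at h4

theorem compl_mem {D : Finset GolayPt} (hD : ind D ∈ golayCode) : ind Dᶜ ∈ golayCode := by
  have h1 : ind Dᶜ = ind D + 1 := by
    funext p
    rw [Pi.add_apply, ind_apply, ind_apply, Pi.one_apply]
    by_cases hp : p ∈ D
    · simp [hp]; decide
    · simp [hp]
  rw [h1]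
  exact golayCode.add_mem hD (Submodule.subset_span (Or.inr rfl))

/-- **The weights.** -/
theorem main (h2 : (2 : k) ≠ 0) (Y : Sys e) {p0 : GolayPt} (hne : ρ (e p0) ≠ 1) :
    (∀ O ∈ octads, Occ e ρ O) ∨ ∀ D ∈ dodecads, Occ e ρ D := by
  obtain ⟨S, hS, hS0, hnone, hSc⟩ := exists_occ h2 Y hne
  have hcard : S.card = 8 ∨ S.card = 12 ∨ S.card = 16 := by
    have h1 := Cfsg.Agent.S0359.result _ hSc
    rw [hammingNorm_ind] at h1
    rcases h1 with h | h | h | h | h
    · exact absurd (Finset.card_eq_zero.1 h) hS0
    · exact Or.inl h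
    · exact Or.inr (Or.inl h)
    · exact Or.inr (Or.inr h)
    · exfalso
      apply hnone
      have h2 : S = Finset.univ := by
        apply Finset.eq_univ_of_card
        rw [h]; decide
      rw [h2]
      exact Finset.mem_univ _
  have hoct : ∀ O : Finset GolayPt, O ∈ octads → Occ e ρ O → ∀ O ∈ octads, Occ e ρ O := by
    intro O hO hOcc O' hO'
    obtain ⟨g, rfl⟩ := Cfsg.Agent.S0367.result O O' hO hO'
    exact hOcc.smul Y g
  rcases hcard with h8 | h12 | h16
  · exact Or.inl (hoct S ((mem_octads_iff S).2 ⟨hSc, h8⟩) hS)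
  · right
    intro D hD
    obtain ⟨g, rfl⟩ := Cfsg.Agent.S0368.result S D ((mem_dodecads_iff S).2 ⟨hSc, h12⟩) hD
    exact hS.smul Y g
  · left
    refine hoct Sᶜ ?_ hS.compl
    rw [mem_octads_iff]
    refine ⟨compl_mem hSc, ?_⟩
    rw [Finset.card_compl, h16]
    decide

variable [FiniteDimensional k W]

theorem card_oct (h2 : (2 : k) ≠ 0) (hall : ∀ O ∈ octads, Occ e ρ O) : 759 ≤ Module.finrank k W := by
  have hall' : ∀ O : octads, Occ e ρ O := fun O => hall O.1 O.2
  choose v hv hv' using hall'
  have h1 := Cfsg.Agent.H203.LS.card_le_of_weights (k := k) (V := W) (ι := octads) (J := GolayPt)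
    (fun p => ρ (e p)) v (fun O' p => sgn k O'.1 p * sgn k O'.1 none) hv (fun O' p => hv' O' p) (by
      rintro ⟨A, hA⟩ ⟨B, hB⟩ hAB
      exact Subtype.ext (oct_inj h2 hA hB fun p => congrFun hAB p))
  have h3 : Nat.card octads = 759 := Cfsg.Agent.S0360.result
  rwa [h3] at h1

theorem card_dod (h2 : (2 : k) ≠ 0) (hall : ∀ D ∈ dodecads, Occ e ρ D) : 1288 ≤ Module.finrank k W := by
  classical
  let I : Type := {D : Finset GolayPt // D ∈ dodecads ∧ none ∉ D}
  have hall' : ∀ D : I, Occ e ρ D.1 := fun D => hall D.1 D.2.1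
  choose v hv hv' using hall'
  have h1 := Cfsg.Agent.H203.LS.card_le_of_weights (k := k) (V := W) (ι := I) (J := GolayPt)
    (fun p => ρ (e p)) v (fun O' p => sgn k O'.1 p * sgn k O'.1 none) hv (fun O' p => hv' O' p) (by
      rintro ⟨A, hA, hA0⟩ ⟨B, hB, hB0⟩ hAB
      exact Subtype.ext (dod_inj h2 hA0 hB0 fun p => congrFun hAB p))
  have h3 : Nat.card dodecads = 2576 := Cfsg.Agent.S0361.result
  have hcd : ∀ D : Finset GolayPt, D ∈ dodecads → Dᶜ ∈ dodecads := by
    intro D hD
    rw [mem_dodecads_iff] at hD ⊢
    refine ⟨compl_mem hD.1, ?_⟩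
    rw [Finset.card_compl, hD.2]
    decide
  let f : dodecads → I × Bool := fun D =>
    if h : none ∈ D.1 then (⟨D.1ᶜ, hcd _ D.2, fun h' => (Finset.mem_compl.1 h') h⟩, true)
    else (⟨D.1, D.2, h⟩, false)
  have hf : Function.Injective f := by
    rintro ⟨A, hA⟩ ⟨B, hB⟩ h
    apply Subtype.ext
    show A = B
    by_cases hA0 : none ∈ A <;> by_cases hB0 : none ∈ B
    · have h3 := congrArg (fun x : I × Bool => x.1.1) h
      simp only [f, hA0, hB0, dif_pos] at h3
      exact compl_injective h3
    · have h3 := congrArg (fun x : I × Bool => x.2) h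
      simp [f, hA0, hB0] at h3
    · have h3 := congrArg (fun x : I × Bool => x.2) h
      simp [f, hA0, hB0] at h3
    · have h3 := congrArg (fun x : I × Bool => x.1.1) h
      simpa [f, hA0, hB0] using h3
  have h4 := Nat.card_le_card_of_injective f hf
  rw [Nat.card_prod, h3, Nat.card_eq_fintype_card (α := Bool), Fintype.card_bool] at h4
  omega

/-- the product of two of the commuting elements moves a space of dimension at least 176 -/
theorem codim_pair (h2 : (2 : k) ≠ 0) (hall : ∀ O ∈ octads, Occ e ρ O) {p q : GolayPt} (hpq : p ≠ q) :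
    176 + Module.finrank k (LinearMap.ker (ρ (e p * e q) - 1)) ≤ Module.finrank k W := by
  classical
  let I : Type := {O : Finset GolayPt // O ∈ octads ∧ p ∈ O ∧ q ∉ O}
  have hall' : ∀ O : I, Occ e ρ O.1 := fun O => hall O.1 O.2.1
  choose v hv hv' using hall'
  have hli := Cfsg.Agent.H203.LS.linearIndependent_of_weights (k := k) (V := W) (ι := I) (J := GolayPt)
    (fun p => ρ (e p)) v (fun O' p => sgn k O'.1 p * sgn k O'.1 none) hv (fun O' p => hv' O' p) (by
      rintro ⟨A, hA, hA0⟩ ⟨B, hB, hB0⟩ hAB
      exact Subtype.ext (oct_inj h2 hA hB fun p => congrFun hAB p))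
  have hvm : ∀ O : I, v O ∈ LinearMap.ker (ρ (e p * e q) + 1) := by
    intro O
    rw [LinearMap.mem_ker, LinearMap.add_apply, map_mul, Module.End.mul_apply, hv', map_smul, hv', smul_smul]
    have h3 : sgn k O.1 p = -1 := if_pos O.2.2.1
    have h4 : sgn k O.1 q = 1 := if_neg O.2.2.2
    have h5 := sgn_sq (k := k) O.1 none
    have h6 : sgn k O.1 q * sgn k O.1 none * (sgn k O.1 p * sgn k O.1 none) = -1 := by
      rw [h3, h4]
      linear_combination -h5
    rw [h6, neg_smul, one_smul]
    exact neg_add_cancel _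
  have hli' : LinearIndependent k (fun O : I => (⟨v O, hvm O⟩ : LinearMap.ker (ρ (e p * e q) + 1))) :=
    LinearIndependent.of_comp (Submodule.subtype _) hli
  have hfinI : Finite I := Subtype.finite
  have hI : Fintype I := Fintype.ofFinite I
  have h7 := hli'.fintype_card_le_finrank
  have h8 : Nat.card I = 176 := (Cfsg.Agent.S1605.result p q hpq).1
  rw [← Nat.card_eq_fintype_card, h8] at h7
  have h9 : Disjoint (LinearMap.ker (ρ (e p * e q) + 1)) (LinearMap.ker (ρ (e p * e q) - 1)) := by
    rw [Submodule.disjoint_def]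
    intro x hx hx'
    rw [LinearMap.mem_ker, LinearMap.add_apply, Module.End.one_apply] at hx
    rw [LinearMap.mem_ker, LinearMap.sub_apply, Module.End.one_apply] at hx'
    have h10 : (2 : k) • x = 0 := by
      have : (2 : k) • x = (ρ (e p * e q) x + x) - (ρ (e p * e q) x - x) := by
        rw [two_smul]; abel
      rw [this, hx, hx', sub_zero]
    exact (smul_eq_zero.1 h10).resolve_left h2
  have h10 := Submodule.finrank_add_finrank_le_of_disjoint h9
  omega

end sys

end Cfsg.Agent.H388.RI.FiW
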