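import Cfsg.Agent.H388.RI.Chain
import Cfsg.Agent.H887.RIM.Lin

/-!
# S4816, module side: commutators of `p`-elements (helper388)

* `comm_index` : `|V : C_V(x b x⁻¹ b⁻¹)| ≤ |V : C_V(Q)| ^ 2` for `x ∈ Q`;
* `comm_codim` : the same for a `p`-element `x` in the situation of the covering bound, for the codimension in a representation;
* `exists_p_part` : the `p`-part of an element.
-/

set_option autoImplicit false

namespace Cfsg.Agent.H388.RI

open Subgroup MulAction

variable {L : Type*} [Group L] {p : ℕ} {V : Type*} [AddCommGroup V] [DistribMulAction L V]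

/-- **Two conjugates.** -/
theorem comm_index [Finite V] (Q : Subgroup L) {x : L} (hx : x ∈ Q) (b : L) :
    (F V (zpowers (x * b * x⁻¹ * b⁻¹))).index ≤ (F V Q).index ^ 2 := by
  have h1 : F V (Q ⊔ Q.map (MulAut.conj b).toMonoidHom) ≤ F V (zpowers (x * b * x⁻¹ * b⁻¹)) := by
    apply F_anti
    rw [zpowers_le]
    have h2 : x * b * x⁻¹ * b⁻¹ = x * (b * x⁻¹ * b⁻¹) := by group
    rw [h2]
    exact mul_mem (le_sup_left (a := Q) hx)
      (le_sup_right (b := Q.map (MulAut.conj b).toMonoidHom) ⟨x⁻¹, inv_mem hx, rfl⟩)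
  have h2 : (F V (zpowers (x * b * x⁻¹ * b⁻¹))).index ≤ (F V (Q ⊔ Q.map (MulAut.conj b).toMonoidHom)).index :=
    Nat.le_of_dvd (Nat.pos_of_ne_zero AddSubgroup.index_ne_zero_of_finite) (AddSubgroup.index_dvd_of_le h1)
  refine h2.trans ?_
  rw [F_sup, pow_two]
  refine AddSubgroup.index_inf_le.trans ?_
  rw [index_F_conj]

/-- the `p`-part of an element is a power of it -/
theorem exists_p_part {n : L} [Finite L] (hp : p.Prime) :
    ∃ j : ℕ, ¬ p ∣ j ∧ ∃ t, orderOf (n ^ j) = p ^ t := by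
  have ho : orderOf n ≠ 0 := (orderOf_pos n).ne'
  obtain ⟨t, j, hj, h⟩ := Nat.exists_eq_pow_mul_and_not_dvd ho p hp.ne_one
  refine ⟨j, hj, t, ?_⟩
  have hj0 : 0 < j := Nat.pos_of_ne_zero fun h0 => hj (h0 ▸ dvd_zero p)
  rw [orderOf_pow, h, Nat.gcd_mul_left_left, Nat.mul_div_cancel _ hj0]

section cover

variable {S : Type*} [Group S] {π : L →* S} {N a : ℕ}

/-- **The codimension of a commutator** with a `p`-element: `dim W ≤ 2 c + dim C_W(x b x⁻¹ b⁻¹)`. -/
theorem comm_codim [Finite L] [Finite V] (hp : p.Prime) (hπ : Function.Surjective π)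
    (hcen : π.ker ≤ center L) (hk : ¬ p ∣ Nat.card π.ker) (hN : ¬ p ∣ N) (hcard : Nat.card S = N * p ^ a)
    (hV : ∀ v : V, p • v = 0) (hfix : ∀ v : V, ¬ p ∣ (stabilizer L v).index) {c : ℕ} (hc : N < p ^ (c + 1))
    {x : L} {t : ℕ} (hx : orderOf x = p ^ t) (b : L)
    {k W : Type*} [Field k] [AddCommGroup W] [Module k W] (ρ : L →* Module.End k W)
    (hW : Nat.card V = p ^ Module.finrank k W)
    (hρ : ∀ h : L, Nat.card {v : V // h • v = v} = p ^ Module.finrank k (LinearMap.ker (ρ h - 1))) :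
    Module.finrank k W ≤ 2 * c + Module.finrank k (LinearMap.ker (ρ (x * b * x⁻¹ * b⁻¹) - 1)) := by
  have : Fact p.Prime := ⟨hp⟩
  have h1 : IsPGroup p (zpowers x) := by
    rw [IsPGroup.iff_card]
    exact ⟨t, by rw [Nat.card_zpowers, hx]⟩
  obtain ⟨Q, hQ⟩ := h1.exists_le_sylow
  obtain ⟨e, he, hi⟩ := cov_pow hp hπ hcen hk hN hcard hV hfix Q hc
  have h2 := comm_index (V := V) (Q : Subgroup L) (hQ (mem_zpowers x)) b
  have h3 : Nat.card (F V (zpowers (x * b * x⁻¹ * b⁻¹))) =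
      p ^ Module.finrank k (LinearMap.ker (ρ (x * b * x⁻¹ * b⁻¹) - 1)) := by
    rw [← hρ]
    apply Nat.card_congr
    apply Equiv.subtypeEquivRight
    intro v
    rw [mem_F]
    constructor
    · intro h
      exact h _ (mem_zpowers _)
    · intro h g hg
      have h4 : zpowers (x * b * x⁻¹ * b⁻¹) ≤ stabilizer L v := by
        rw [zpowers_le]
        exact mem_stabilizer_iff.2 h
      exact mem_stabilizer_iff.1 (h4 hg)
  have h4 := AddSubgroup.card_mul_index (F V (zpowers (x * b * x⁻¹ * b⁻¹)))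
  rw [h3, hW] at h4
  rw [hi, ← pow_mul] at h2
  have h5 : p ^ Module.finrank k W ≤ p ^ (Module.finrank k (LinearMap.ker (ρ (x * b * x⁻¹ * b⁻¹) - 1)) + e * 2) := by
    rw [← h4, pow_add]
    exact Nat.mul_le_mul_left _ h2
  have h6 := (Nat.pow_le_pow_iff_right hp.one_lt).1 h5
  omega

end cover

end Cfsg.Agent.H388.RI
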