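import Cfsg.Agent.H388.RI.Chain
import Cfsg.Agent.H665.RIM.Defs

/-!
# S4816, module side: user forms of the chain bound (helper388)

* `noPEx` : `L` perfect, central `p'`-cover of the simple `S`, `|S| = N p ^ a`, every faithful irreducible module has at
  least `p ^ D` elements, `N < p ^ (c + 1)`, `N < (p + 1) ^ k`, `c k < D` : `NoPEx p L`;
* `noPEx_simple` : the case `L = S`.
-/

set_option autoImplicit false

namespace Cfsg.Agent.H388.RI

open Subgroup MulAction

universe u

/-- no fixed vectors -/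
theorem fixed_eq_zero {L V : Type*} [Group L] [AddCommGroup V] [DistribMulAction L V] [Nontrivial L]
    (hf : ∀ h : L, (∀ v : V, h • v = v) → h = 1)
    (hirr : ∀ W : AddSubgroup V, (∀ h : L, ∀ w ∈ W, h • w ∈ W) → W = ⊥ ∨ W = ⊤) (v : V) (hv : ∀ g : L, g • v = v) :
    v = 0 := by
  rcases hirr (F V (⊤ : Subgroup L)) (fun h w hw g hg => by rw [hw h (mem_top h), hw g hg]) with h1 | h1
  · have h2 : v ∈ F V (⊤ : Subgroup L) := fun g _ => hv g
    rw [h1] at h2
    exact h2
  · exfalso
    obtain ⟨g, hg⟩ := exists_ne (1 : L)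
    apply hg
    apply hf
    intro w
    have h2 : w ∈ F V (⊤ : Subgroup L) := h1 ▸ AddSubgroup.mem_top w
    exact h2 g (mem_top g)

/-- **The chain bound for covers.** -/
theorem noPEx {L : Type u} [Group L] [Finite L] {S : Type*} [Group S] [IsSimpleGroup S] {π : L →* S} {p N a c k D : ℕ}
    (hp : p.Prime) (hperf : commutator L = ⊤) (hπ : Function.Surjective π) (hcen : π.ker ≤ center L)
    (hk : ¬ p ∣ Nat.card π.ker) (hN : ¬ p ∣ N) (ha : a ≠ 0) (hcard : Nat.card S = N * p ^ a)
    (hc : N < p ^ (c + 1)) (hkk : N < (p + 1) ^ k) (hnum : c * k < D)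
    (hD : ∀ (V : Type u) [AddCommGroup V] [Finite V] [DistribMulAction L V], (∀ v : V, p • v = 0) →
      (∀ h : L, (∀ v : V, h • v = v) → h = 1) → p ^ D ≤ Nat.card V) : H665.RIM.NoPEx.{u} p L := by
  intro V _ _ _ hV _ hf hirr hfix
  have : Nontrivial L := by
    have h1 : Nontrivial S := IsSimpleGroup.toNontrivial
    exact hπ.nontrivial
  exact chain hp hperf hπ hcen hk hN ha hcard hV (fun v hv => fixed_eq_zero hf hirr v hv) hfix hc hkk (hD V hV hf) hnum

/-- **The chain bound for simple groups.** -/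
theorem noPEx_simple {S : Type u} [Group S] [Finite S] [IsSimpleGroup S] {p N a c k D : ℕ}
    (hp : p.Prime) (hperf : commutator S = ⊤) (hN : ¬ p ∣ N) (ha : a ≠ 0) (hcard : Nat.card S = N * p ^ a)
    (hc : N < p ^ (c + 1)) (hkk : N < (p + 1) ^ k) (hnum : c * k < D)
    (hD : ∀ (V : Type u) [AddCommGroup V] [Finite V] [DistribMulAction S V], (∀ v : V, p • v = 0) →
      (∀ h : S, (∀ v : V, h • v = v) → h = 1) → p ^ D ≤ Nat.card V) : H665.RIM.NoPEx.{u} p S := by
  have hker : (MonoidHom.id S).ker = ⊥ := by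
    ext x
    rw [MonoidHom.mem_ker, mem_bot, MonoidHom.id_apply]
  refine noPEx (π := MonoidHom.id S) hp hperf Function.surjective_id (by rw [hker]; exact bot_le) ?_ hN ha hcard hc hkk
    hnum hD
  rw [hker, Subgroup.card_bot, Nat.dvd_one]
  exact hp.ne_one

end Cfsg.Agent.H388.RI
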